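import Mathlib
import Cfsg.Agent.Blk.PowFix
import Cfsg.Agent.Ch.BrauerCongr
import Cfsg.Agent.Ch.Galois

/-! The sum of the power-map fixed odd-degree characters of the principal 2-block vanishes modulo `M`. -/

set_option autoImplicit false
open Cfsg

namespace Cfsg.Agent.SgF

open Cfsg.Agent.Blk

variable {G : Type*} [Group G] [Finite G] {M : Ideal AlgInt} {k : ℕ}

theorem memLoc [M.IsMaximal] (χ : IrrCharacter G) (g : G) : MemLocalRing M ((χ : G → ℂ) g) :=
  MemLocalRing.of_isIntegral (χ.2.isCharacter.isIntegral g)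

open Classical in
/-- The odd-degree members of the principal block. -/
noncomputable def od (M : Ideal AlgInt) (G : Type*) [Group G] [Finite G] : Finset (IrrCharacter G) :=
  (PB.pb M G).filter fun χ => Odd (charDegree (χ : G → ℂ))

theorem mem_od {χ : IrrCharacter G} :
    χ ∈ od M G ↔ χ ∈ principalBlock M G ∧ Odd (charDegree (χ : G → ℂ)) := by
  classical
  simp [od, PB.mem_pb]

theorem sum_od [M.IsMaximal] (hM : IsPModular 2 M) (hev : Even (Nat.card G)) {g : G}
    (hg : ¬ 2 ∣ orderOf g) : ∑ χ ∈ od M G, red M ((χ : G → ℂ) g) = 0 := by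
  classical
  obtain ⟨t, ht⟩ := exists_prime_orderOf_dvd_card' 2 hev.two_dvd
  have h0 := congrArg (red M) (PB.sum_mul_eq_zero_of_regular hM (G := G) (h := t) hg (ht ▸ dvd_rfl))
  rw [red_zero, red_sum fun χ _ => (memLoc χ g).mul (memLoc χ t)] at h0
  rw [← h0, od, Finset.sum_filter]
  refine Finset.sum_congr rfl fun χ _ => ?_
  rw [red_mul (memLoc χ g) (memLoc χ t), red_eq_of_sub_mem (memLoc χ 1)
    (PB.apply_sub_mem (u := t) hM χ.2.isCharacter ⟨1, by rw [ht, pow_one]⟩), ← χ.2.coe_charDegree, red_natCast]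
  have := hM.charP
  split_ifs with h
  · obtain ⟨m, hm⟩ := h
    rw [hm]
    push_cast
    rw [show (2 : Res M) = 0 from by exact_mod_cast CharP.cast_eq_zero (Res M) 2]
    simp
  · rw [(hM.natCast_res_eq_zero_iff _).2 (Nat.not_odd_iff_even.1 h).two_dvd, mul_zero]

open Classical in
/-- The members fixed by the power map. -/
noncomputable def fx (M : Ideal AlgInt) (G : Type*) [Group G] [Finite G] (k : ℕ) :
    Finset (IrrCharacter G) :=
  (od M G).filter fun χ => ∀ g, (χ : G → ℂ) (g ^ k) = (χ : G → ℂ) g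

theorem mem_fx {χ : IrrCharacter G} : χ ∈ fx M G k ↔ χ ∈ principalBlock M G ∧
    Odd (charDegree (χ : G → ℂ)) ∧ ∀ g, (χ : G → ℂ) (g ^ k) = (χ : G → ℂ) g := by
  classical
  simp [fx, mem_od, and_assoc]

theorem card_fx : Nat.card {χ : IrrCharacter G // χ ∈ principalBlock M G ∧
    Odd (charDegree (χ : G → ℂ)) ∧ ∀ g, (χ : G → ℂ) (g ^ k) = (χ : G → ℂ) g} = (fx M G k).card := by
  rw [← Nat.card_eq_finsetCard]
  exact Nat.card_congr (Equiv.subtypeEquivRight fun χ => mem_fx.symm)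

theorem one_mem_fx (hM : IsPModular 2 M) : Ch.irrOne G ∈ fx M G k := by
  refine mem_fx.2 ⟨PB.mem_pb.mp (PB.one_mem_pb hM), ?_, fun _ => rfl⟩
  change Odd (charDegree fun _ : G => (1 : ℂ))
  rw [Ch.charDegree_one]; exact odd_one

theorem sum_fx_reg [M.IsMaximal] (hM : IsPModular 2 M) (hev : Even (Nat.card G)) (hK : PF.PowK 2 k G)
    {g : G} (hg : ¬ 2 ∣ orderOf g) : ∑ χ ∈ fx M G k, red M ((χ : G → ℂ) g) = 0 := by
  classical
  have hcop := hK.coprime Nat.prime_two
  rw [← sum_od hM hev hg]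
  set t := (od M G).image fun χ : IrrCharacter G => (χ : G → ℂ) g
  rw [← Finset.sum_fiberwise_of_maps_to (s := od M G) (t := t) (g := fun χ => (χ : G → ℂ) g)
      fun χ h => Finset.mem_image_of_mem _ h,
    ← Finset.sum_fiberwise_of_maps_to (s := fx M G k) (t := t) (g := fun χ => (χ : G → ℂ) g)
      fun χ h => Finset.mem_image_of_mem _ (Finset.mem_filter.1 h).1]
  refine Finset.sum_congr rfl fun c _ => ?_
  rw [Finset.sum_congr rfl fun χ h => congrArg (red M) (Finset.mem_filter.1 h).2,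
    Finset.sum_congr rfl fun χ (h : χ ∈ (od M G).filter _) => congrArg (red M) (Finset.mem_filter.1 h).2,
    Finset.sum_const, Finset.sum_const, nsmul_eq_mul, nsmul_eq_mul]
  congr 1
  have := hM.charP
  rw [CharP.natCast_eq_natCast (Res M) 2]
  have h1 := hK.card_modEq Nat.prime_two
    (fun χ => χ ∈ od M G ∧ (χ : G → ℂ) g = c) (by
      rintro χ ψ ⟨h, h'⟩ hψ
      rw [mem_od] at h
      refine ⟨mem_od.2 ⟨(P0.mem_iff_of_pow hM hcop hψ).mpr h.1, ?_⟩, ?_⟩
      · rw [Ch.charDegree_congr (ψ := (χ : G → ℂ)) (by rw [hψ, one_pow])]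
        exact h.2
      · rw [hψ, hK.reg g hg, h'])
  rw [← Nat.card_eq_finsetCard, ← Nat.card_eq_finsetCard]
  refine Eq.mpr (congrArg₂ (· ≡ · [MOD 2]) ?_ ?_) h1.symm
  · refine Nat.card_congr (Equiv.subtypeEquivRight fun χ => ?_)
    simp only [fx, Finset.mem_filter]
    tauto
  · refine Nat.card_congr (Equiv.subtypeEquivRight fun χ => ?_)
    simp only [Finset.mem_filter]

theorem sum_fx [M.IsMaximal] (hM : IsPModular 2 M) (hev : Even (Nat.card G)) (hK : PF.PowK 2 k G)
    (g : G) : ∑ χ ∈ fx M G k, red M ((χ : G → ℂ) g) = 0 := by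
  obtain ⟨u, v, -, -, rfl, huv, hu, hv⟩ := Ch.exists_p_parts Nat.prime_two g
  rw [← sum_fx_reg hM hev hK hv]
  exact Finset.sum_congr rfl fun χ _ => red_eq_of_sub_mem (memLoc χ v)
    (Ch.memLocalIdeal_apply_mul_sub hM χ.2.isCharacter.isGeneralizedCharacter huv hu)

end Cfsg.Agent.SgF
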